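import Cfsg.Agent.BHZ.Exc.ND4
import Cfsg.Agent.BHZ.Exc.AL
import Cfsg.Agent.BHZ.Exc.TAG2
import Cfsg.Agent.DS.Nt.JAbs

/-!
# S4817, `E₈`, `p = 3`: the fixed points in `PGL₃` have no character of defect zero (helper19)
-/

set_option autoImplicit false

namespace Cfsg.Agent.TO.X3N

open Cfsg Subgroup
open Cfsg.Agent.H665.NoPQ (HasDZ)
open Cfsg.Agent.H469.Exc (KK)
open Cfsg.Agent.BpExc Cfsg.Agent.DS.Ex Cfsg.Agent.DS.Nt.JL Cfsg.Agent.BHZ.Exc Cfsg.Agent.BHZ.Exc.AA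
open Cfsg.Agent.H321.Ker (stG stm sc toGL_stm toGL_inj' sc_comm sc_mem sc_one mem_scalars_iff_sc)
open Matrix.SpecialLinearGroup (toGL)

section PT

variable {r : ℕ} [Fact r.Prime]

/-- the elements which are fixed modulo the centre -/
def ST (τ : S3 r →* S3 r) : Subgroup (S3 r) where
  carrier := {g | τ g * g⁻¹ ∈ center (S3 r)}
  one_mem' := by
    show τ 1 * (1 : S3 r)⁻¹ ∈ center (S3 r)
    rw [map_one, mul_inv_cancel]
    exact one_mem _
  mul_mem' := fun {a b} ha hb => by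
    show τ (a * b) * (a * b)⁻¹ ∈ center (S3 r)
    have e : τ (a * b) * (a * b)⁻¹ = τ a * a⁻¹ * (a * (τ b * b⁻¹) * a⁻¹) := by rw [map_mul]; group
    rw [e, mem_center_iff.1 hb a, mul_inv_cancel_right]
    exact mul_mem ha hb
  inv_mem' := fun {a} ha => by
    show τ a⁻¹ * a⁻¹⁻¹ ∈ center (S3 r)
    have e : τ a⁻¹ * a⁻¹⁻¹ = a⁻¹ * (τ a * a⁻¹)⁻¹ * a := by rw [map_inv]; group
    rw [e, mem_center_iff.1 (inv_mem ha) a⁻¹, inv_mul_cancel_right]
    exact inv_mem ha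

theorem mem_ST {τ : S3 r →* S3 r} {g : S3 r} : g ∈ ST τ ↔ τ g * g⁻¹ ∈ center (S3 r) := Iff.rfl

/-- the fixed points in the projective group -/
abbrev PT (τ : S3 r →* S3 r) : Type := ((QuotientGroup.mk' (center (S3 r))).comp (ST τ).subtype).range

/-- the projection -/
noncomputable def prT (τ : S3 r →* S3 r) : ST τ →* PT τ := MonoidHom.rangeRestrict _

theorem prT_surj (τ : S3 r →* S3 r) : Function.Surjective (prT τ) := MonoidHom.rangeRestrict_surjective _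

theorem prT_eq_one {τ : S3 r →* S3 r} {g : ST τ} : prT τ g = 1 ↔ (g : S3 r) ∈ center (S3 r) := by
  rw [← QuotientGroup.eq_one_iff]
  exact Subtype.ext_iff

theorem cen_three {g : S3 r} (hg : g ∈ center (S3 r)) : g ^ 3 = 1 := cen_pow hg

/-- **No character of defect zero.** -/
theorem not_dz_PT (hr : r ≠ 3) {e : ℕ} (he : 0 < e) (Dm : GL (Fin 3) (KK r)) (uni : Bool)
    (hc : ∀ g ∈ center (S3 r), stm r e Dm uni g = g) :
    Finite (PT (stm r e Dm uni)) ∧ ¬ HasDZ 3 (PT (stm r e Dm uni)) := by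
  obtain ⟨Δ, hΔ⟩ := exists_ext (QuotientGroup.mk' (center (S3 r))) fun g hg => (QuotientGroup.eq_one_iff g).2 hg
  have h1 : ∀ x : (stG r e Dm uni).eqLocus (MonoidHom.id _),
      Δ x ∈ ((QuotientGroup.mk' (center (S3 r))).comp (ST (stm r e Dm uni)).subtype).range := fun x => by
    obtain ⟨g, z, hx⟩ := exists_decomp (x : GL (Fin 3) (KK r))
    obtain ⟨w, hw⟩ := stG_sc (r := r) e Dm uni z
    have h2 : stG r e Dm uni x = x := x.2
    rw [hx, map_mul, hw, ← toGL_stm] at h2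
    refine ⟨⟨g, mem_ST.2 (center_iff.2 ?_)⟩, by rw [hx, hΔ]; rfl⟩
    rw [map_mul, map_inv, eq_mul_inv_of_mul_eq h2, mul_assoc (toGL g), mul_assoc, ← H321.Ker.sc_inv, ← H321.Ker.sc_mul,
      sc_comm, mul_inv_cancel_left]
    exact sc_mem _
  let f : (stG r e Dm uni).eqLocus (MonoidHom.id _) →* PT (stm r e Dm uni) :=
    (Δ.comp (Subgroup.subtype _)).codRestrict _ h1
  have h3 : Function.Surjective f := by
    rintro ⟨_, ⟨g, hg⟩, rfl⟩
    obtain ⟨c, hc⟩ := mem_scalars_iff_sc.1 (center_iff.1 (mem_ST.1 hg))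
    rw [map_mul, map_inv, toGL_stm, mul_inv_eq_iff_eq_mul] at hc
    obtain ⟨z, hz⟩ := TAG.exists_scale he hc
    exact ⟨⟨_, hz⟩, Subtype.ext (hΔ g z)⟩
  have h4 := TAG.finite_stG (r := r) he Dm uni
  have h5 : Finite (PT (stm r e Dm uni)) := Finite.of_surjective f h3
  refine ⟨h5, boxND r hr e 1 he (Or.inl rfl) Dm uni ?_ _ f h3 (fun x => ?_) _ (MonoidHom.id _) Function.surjective_id
    (by rw [MonoidHom.ker_id]; exact bot_le) (by rw [MonoidHom.ker_id, card_bot])⟩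
  · obtain ⟨ω, g, h6, h7, h8⟩ := exists_omega hr
    exact ⟨ω, h6, h7, by rw [← h8, ← toGL_stm, hc g (center_iff.2 (h8 ▸ sc_mem ω))]⟩
  · obtain ⟨g, z, hx⟩ := exists_decomp (x : GL (Fin 3) (KK r))
    rw [Subtype.ext_iff]
    show Δ x = 1 ↔ _
    rw [hx, hΔ, QuotientGroup.mk'_apply, QuotientGroup.eq_one_iff, center_iff, mul_mem_cancel_right (sc_mem z)]

end PT

end Cfsg.Agent.TO.X3N
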